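import Cfsg.Agent.H52.SimXSSpec
import Cfsg.Agent.H59.Order

/-! # SIM-XS-Ord: three small orders -/

set_option autoImplicit false

namespace H89.SimOrd

open Subgroup H0.Sim

theorem jobOrd : H52.XS.JobOrd := by
  intro K _ _
  refine ⟨fun h => ?_, fun h => ?_, fun h => ?_⟩
  · have e : Gam 2 K false 3 = ⊤ := rfl
    rw [e, card_top, Matrix.card_GL_field, h]
    decide
  · have e : Gam 2 K true 3 = Cfsg.GU 2 K 3 := rfl
    rw [e, H59.card_GU (q := 3) h]
    decide
  · have e : Gam 2 K true 2 = Cfsg.GU 2 K 2 := rfl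
    rw [e, H59.card_GU (q := 2) h]
    decide

end H89.SimOrd
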