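import Cfsg.Agent.H53.SimXASpec

/-! # SIM-XA-A24: small blocks force `GU₂(2)` -/

set_option autoImplicit false

namespace H89.SimA24

open Subgroup Cfsg H98 Matrix H0.Sim H53.XA

theorem jobA24 : JA24 := by
  intro th' rp red bk cd bi prt en n F _ _ u q p Θ H Q E g b x hq cm sm
  by_contra hne
  have fq : Fq F u q := x.par.card
  obtain ⟨hE, -, hr, ⟨e0, he0, nsc⟩, -, -⟩ := rp n F u q p Θ H Q E g x.toXa
  obtain ⟨𝒯, hT, hs⟩ := (bk n F u q E fq hE).2.2.2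
  have mT : ∀ f ∈ 𝒯, f ∈ Bl u q E := fun f hf => hT ▸ Finset.mem_coe.2 hf
  have dec : ∀ m : Mt n F, m = ∑ f ∈ 𝒯, m * f := fun m => by rw [← Finset.mul_sum, hs, mul_one]
  have cz : ∀ y ∈ Q, ∀ f ∈ Bl u q E, y ∈ Cz u q f := fun y hy f hf =>
    ⟨x.HG (x.QH hy), hq y hy f hf⟩
  refine en n F u q p Θ H Q E g x.toXa fun y hy => ?_
  have yQ := x.BQ hy
  rw [dec (y : Mt n F)]
  refine Submodule.sum_mem _ fun f hf => ?_
  have hf' := mT f hf
  have rk := x.rk f hf'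
  have k1 : ((f.rank = 2 ∧ q = 3) ∨ (u = true ∧ f.rank = 3 ∧ q = 2)) → (y : Mt n F) * f ∈ Sp E := by
    intro k
    obtain ⟨c, e⟩ := (prt n F u q f y fq hf'.2.1 (cz y yQ f hf') (hr y yQ)).1 k (cm f hf' y hy)
    rw [e]
    exact Submodule.smul_mem _ _ hf'.1
  rcases sm with ⟨b2, q3⟩ | ⟨k, b3, q2⟩
  swap
  · exact k1 (.inr ⟨k, rk.trans b3, q2⟩)
  have q2 := (cd F u q fq).1
  by_cases q3' : q = 3
  · exact k1 (.inl ⟨rk.trans b2, q3'⟩)
  have q2' : q = 2 := by omega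
  have uf : u = false := by
    cases u
    · rfl
    · exact absurd ⟨rfl, q2', b2⟩ hne
  have iv : Iv Θ {f | f ∈ Bl u q E ∧ ∀ e ∈ E, (e : Mt n F) * f = f} := by
    rintro j hj f ⟨h1, h2⟩
    refine ⟨x.iv j hj f h1, fun e he => ?_⟩
    obtain ⟨_, ⟨e₀, he₀, rfl⟩, e1⟩ := (bi n F u q p Θ H Q E g x.toXa).2.2.1 j hj e ⟨e, he, rfl⟩
    have mul := (th' n F u q j fq (x.ok j hj)).2.2.2.2.1
    rw [← e1]
    by_cases ha : j.a = true
    · have := mul f e₀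
      rw [if_pos ha, ← hq e₀ (x.EQ he₀) f h1, h2 e₀ he₀] at this
      exact this.symm
    · have := mul e₀ f
      rw [if_neg ha, h2 e₀ he₀] at this
      exact this.symm
  rcases x.tr _ (fun f hf => hf.1) iv with k | k
  · have h1 : ¬ (f ∈ Bl u q E ∧ ∀ e ∈ E, (e : Mt n F) * f = f) := fun h =>
      Set.notMem_empty f (k ▸ h)
    push Not at h1
    obtain ⟨e, he, ne⟩ := h1 hf'
    obtain ⟨a, c, e1⟩ := (prt n F u q f e fq hf'.2.1 (cz e (x.EQ he) f hf') (hE.rp e he)).2 uf q2'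
      (rk.trans b2) ne y (cz y yQ f hf') (hr y yQ)
    rw [e1]
    exact add_mem (Submodule.smul_mem _ _ hf'.1) (Submodule.smul_mem _ _
      ((red n F u q E fq hE).1 e (Submodule.subset_span ⟨e, he, rfl⟩) f hf'.1).1)
  · refine absurd ⟨1, ?_⟩ nsc
    rw [map_one, dec (e0 : Mt n F), ← hs]
    refine Finset.sum_congr rfl fun f hf => ?_
    have h1 : f ∈ {f | f ∈ Bl u q E ∧ ∀ e ∈ E, (e : Mt n F) * f = f} := k.ge (mT f hf)
    exact h1.2 e0 he0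

end H89.SimA24
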