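/- C3 tower (row S5227), slot L1a. -/
import Cfsg.Agent.H20.C3Spec

set_option autoImplicit false
set_option linter.unusedSimpArgs false
set_option linter.unnecessarySeqFocus false
set_option linter.unreachableTactic false
set_option linter.unusedTactic false

open Subgroup H20.C3
open H90.U5 (Bq)
open H90.RF (cm Au Pr Ok le_nor)

namespace H89.C3L

variable {E M : Subgroup Co}

theorem cen1 (h : Bq 3 zA 1 E M) {s m : Co} (hs : s ∈ E) (hm : m ∈ M) : cm s m ∈ sZ :=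
  (h.cen s).1 hs m hm

theorem mem1 (h : Bq 3 zA 1 E M) {s : Co} (k : ∀ m ∈ M, cm s m ∈ sZ) : s ∈ E := (h.cen s).2 k

theorem cmAA {s m : Co} (hs : s ∈ sA) (hm : m ∈ sA) : cm s m ∈ sZ := by
  obtain ⟨h1, h2, h3⟩ := hs
  obtain ⟨k1, k2, k3⟩ := hm
  refine ⟨cm_a _ _, cm_b _ _, ?_, cm_c _ _, ?_, ?_, ?_, ?_⟩ <;>
    simp [cm_d, cm_e, cm_f, cm_g, cm_h, *]

theorem cmA {s : Co} (hs : s ∈ sA) (m : Co) : cm s m ∈ sA :=
  ⟨cm_a _ _, cm_b _ _, by simp [cm_d, hs.1, hs.2.1]⟩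

theorem cmZ2 {m : Co} (hm : m ∈ sZ2) (s : Co) : cm s m ∈ sZ := by
  obtain ⟨h1, h2, h3, h4, h5, h6, h7⟩ := hm
  refine ⟨cm_a _ _, cm_b _ _, ?_, cm_c _ _, ?_, ?_, ?_, ?_⟩ <;>
    simp [cm_d, cm_e, cm_f, cm_g, cm_h, *]

theorem cmE2A {s m : Co} (hs : s.b = 0) (hm : m ∈ sA) : cm s m ∈ sW2 := by
  obtain ⟨k1, k2, k3⟩ := hm
  refine ⟨cm_a _ _, cm_b _ _, ?_, cm_c _ _, ?_, ?_⟩ <;> simp [cm_d, cm_e, cm_g, *]

theorem cmE2W {s m : Co} (hs : s.b = 0) (hm : m ∈ sW2) : cm s m ∈ sZ := by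
  obtain ⟨h1, h2, h3, h4, h5, h6⟩ := hm
  refine ⟨cm_a _ _, cm_b _ _, ?_, cm_c _ _, ?_, ?_, ?_, ?_⟩ <;>
    simp [cm_d, cm_e, cm_f, cm_g, cm_h, *]

theorem nZ2 (h : Bq 3 zA 1 E M) : ¬ M ≤ sZ2 := h.not_le fun _ hc s => cmZ2 hc s

theorem partA (ach : Ach) (h : Bq 3 zA 1 E M) (hM : M ≤ sA) : E = sE2 ∨ E = sA := by
  have AE : sA ≤ E := fun s hs => mem1 h fun m hm => cmAA hs (hM hm)
  have inv : ∀ β, Ok zA 1 E β → ∀ x ∈ E, x.b = 0 → (β x).b = 0 := fun β hβ x hx hb => by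
    have pA := ach E AE β hβ.1
    obtain ⟨u, hu, e⟩ := hβ.1.sur_of AE pA (xc 1) ⟨rfl, rfl, rfl⟩
    have h1 : cm x u ∈ sW2 := cmE2A hb hu
    have h2 : β (cm x (cm x u)) ∈ sZ := hβ.2 1 le_rfl _ (cmE2W hb h1)
    rw [hβ.1.cm hx (AE ⟨h1.1, h1.2.1, h1.2.2.1⟩), hβ.1.cm hx (AE hu), e] at h2
    have h3 := h2.2.2.2.2.2.2.1
    simp only [cm_g, cm_e, cm_a, cm_b, cm_c, xc] at h3
    generalize (β x).b = t at h3
    simp at h3
    revert t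
    decide
  by_cases hx : ∃ x ∈ E, x.b = 0 ∧ x ∉ sA
  · obtain ⟨x, hx, hb, hA⟩ := hx
    have hW : M ≤ sW2 := h.gen_le fun β hβ u (hu : u ∈ sZ2) _ => by
      obtain ⟨w, hw, e⟩ : ∃ w ∈ sA, (cm x w)⁻¹ * u ∈ sZ := by
        obtain ⟨h1, h2, h3, h4, h5, h6, h7⟩ := hu
        by_cases ha : x.a = 0
        · have hd : x.d ≠ 0 := fun hd => hA ⟨ha, hb, hd⟩
          refine ⟨xe (x.d * u.h), ⟨rfl, rfl, rfl⟩, ?_, ?_, ?_, ?_, ?_, ?_, ?_, ?_⟩ <;>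
            simp [cm_d, cm_e, cm_f, cm_g, cm_h, xe, *]
          linear_combination -u.h * sq_one hd
        · refine ⟨xg (x.a * u.h), ⟨rfl, rfl, rfl⟩, ?_, ?_, ?_, ?_, ?_, ?_, ?_, ?_⟩ <;>
            simp [cm_d, cm_e, cm_f, cm_g, cm_h, xg, *]
          linear_combination -u.h * sq_one ha
      have ZW : sZ ≤ sW2 := fun _ ⟨h1, h2, h3, h4, h5, _, h7, _⟩ => ⟨h1, h2, h3, h4, h5, h7⟩
      have k1 : cm x w ∈ sW2 := cmE2A hb hw
      have k2 : cm x w ∈ E := AE ⟨k1.1, k1.2.1, k1.2.2.1⟩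
      have k3 : (cm x w)⁻¹ * u ∈ E := AE ⟨e.1, e.2.1, e.2.2.1⟩
      rw [← mul_inv_cancel_left (cm x w) u, hβ.1.mul _ k2 _ k3, hβ.1.cm hx (AE hw)]
      exact mul_mem (cmE2A (inv β hβ x hx hb) (ach E AE β hβ.1 w hw)) (ZW (hβ.2 1 le_rfl _ e))
    refine .inl (le_antisymm (fun t ht => by_contra fun tb => nZ2 h fun m hm => ?_)
      fun s hs => mem1 h fun m hm => cmE2W hs (hW hm))
    obtain ⟨h1, h2, h3, h4, h5, h6⟩ := hW hm
    have := (cen1 h ht hm).2.2.2.2.2.2.2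
    simp [cm_h, *] at this
    exact ⟨h1, h2, h3, h4, h5, this.resolve_right tb, h6⟩
  · push Not at hx
    refine .inr (le_antisymm (fun t ht => hx t ht (by_contra fun tb => ?_)) AE)
    refine absurd (hx (xd 1) (mem1 h fun m hm => ?_) rfl).2.2 (by simp [xd])
    obtain ⟨h1, h2, h3⟩ := hM hm
    have e1 := (cen1 h ht hm).2.2.2.2.1
    have e2 := (cen1 h ht hm).2.2.2.2.2.2.1
    simp [cm_e, h1, h2, h3, tb] at e1
    simp [cm_g, h1, h2, h3, tb, e1, two] at e2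
    refine ⟨cm_a _ _, cm_b _ _, ?_, cm_c _ _, ?_, ?_, ?_, ?_⟩ <;>
      simp [cm_d, cm_e, cm_f, cm_g, cm_h, xd, *]

theorem partD (h : Bq 3 zA 1 E M) : M ≤ sD := fun m hm => by_contra fun hD => by
  have nz : m.a * m.a + m.b * m.b ≠ 0 := fun e => hD (by
    show m.a = 0 ∧ m.b = 0
    revert e
    generalize m.a = x
    generalize m.b = y
    revert x y
    decide)
  have pr : ∀ t ∈ E, m.a * t.b = m.b * t.a := fun t ht => by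
    have := (cen1 h ht hm).2.2.1
    rw [cm_d] at this
    linear_combination -this
  have B0 : ∀ y ∈ sZ3, m.a * y.g + m.b * y.f = 0 → y ∈ E := fun y ⟨h1, h2, h3, h4, h5⟩ e =>
    mem1 h fun m' hm' => by
      have p := pr m' (h.ME hm')
      refine ⟨cm_a _ _, cm_b _ _, ?_, cm_c _ _, ?_, ?_, ?_, ?_⟩ <;>
        simp [cm_d, cm_e, cm_f, cm_g, cm_h, *]
      refine mul_left_cancel₀ nz ?_
      linear_combination -(m.a * m'.a + m.b * m'.b) * e + (m.b * y.g - m.a * y.f) * p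
  have B1 : ∀ y ∈ sA5, y ∈ E → y.e = 0 ∧ m.a * y.g + m.b * y.f = 0 := fun y ⟨h1, h2, h3, h4⟩ hy => by
    obtain ⟨-, -, -, -, -, e1, e2, e3⟩ := cen1 h hy hm
    rw [cm_f] at e1
    rw [cm_g] at e2
    rw [cm_h] at e3
    simp only [h1, h2, h3, h4] at e1 e2 e3
    have e0 : y.e = 0 := mul_left_cancel₀ nz (by
      linear_combination -m.a * e1 + m.b * e2 + m.b * m.b * y.e * three)
    exact ⟨e0, by rw [e0] at e3; linear_combination -e3⟩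
  have A5A : sA5 ≤ sA := fun _ ⟨h1, h2, h3, _⟩ => ⟨h1, h2, h3⟩
  refine h.no2 (B := sA5) (le_nor fun s ⟨h1, h2, h3, h4⟩ t ht => B0 _ ⟨cm_a _ _, cm_b _ _, ?_, cm_c _ _, ?_⟩ ?_)
    (fun x hx y hy m _ => cmAA (A5A hx) (cmA (A5A hy) m)) (s := vv 0 0 m.b m.a 0 0) ⟨rfl, rfl, rfl, rfl⟩
    (fun k => nz (B1 _ ⟨rfl, rfl, rfl, rfl⟩ k).2) (fun i j : F3 => vv 0 i (j * m.b) (j * m.a) 0 0) xh
    (fun _ _ => ⟨rfl, rfl, rfl, rfl⟩) (fun i j i' j' k => ?_) fun m' _ => ⟨(cm (vv 0 0 m.b m.a 0 0) m').h, ?_⟩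
  · simp [cm_d, *]
  · simp [cm_e, *]
  · simp only [cm_f, cm_g, h1, h2, h3, h4]
    linear_combination s.e * pr t ht - m.a * t.b * s.e * three
  · obtain ⟨e1, e2⟩ := B1 _ (by refine ⟨?_, ?_, ?_, ?_⟩ <;> simp [vv]) k
    simp [vv] at e1 e2
    exact ⟨by linear_combination -e1, mul_left_cancel₀ nz (by linear_combination -e2)⟩
  · show _ ∈ sZ
    refine ⟨?_, ?_, ?_, ?_, ?_, ?_, ?_, ?_⟩ <;> simp [cm_d, cm_e, cm_f, cm_g, xh, vv]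

theorem jobL1a : H20.C3.JobL1a := fun ach _ _ h => ⟨partA ach h, partD h⟩

end H89.C3L
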