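import Cfsg.Agent.H42.IVSpec

/-! # IV-NumS: the final inequality for `h ≤ 1200` -/

set_option autoImplicit false

namespace H89.IVNumS

open H42.IV Nat

/-- maximum, in a form the kernel evaluates quickly -/
def mx (a b : ℕ) : ℕ := bif Nat.ble a b then b else a

theorem le_mx_left (a b : ℕ) : a ≤ mx a b := by
  unfold mx
  cases h : Nat.ble a b
  · exact le_rfl
  · exact Nat.le_of_ble_eq_true h

theorem le_mx_right (a b : ℕ) : b ≤ mx a b := by
  unfold mx
  cases h : Nat.ble a b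
  · have : ¬ a ≤ b := fun e => by rw [Nat.ble_eq_true_of_le e] at h; cases h
    exact (not_le.1 this).le
  · exact le_rfl

def kp (E t : ℕ) : ℕ := bif Nat.ble (t + 2) (2 * E) then (bif Nat.ble t E then t else E) else E + 1

theorem kp_eq (h t : ℕ) : kp (Nat.log 2 (2 * h)) t = kap h t := by
  unfold kp kap
  by_cases h1 : t + 2 ≤ 2 * Nat.log 2 (2 * h)
  · rw [if_pos h1, Nat.ble_eq_true_of_le h1, cond_true]
    by_cases h2 : t ≤ Nat.log 2 (2 * h)
    · rw [Nat.ble_eq_true_of_le h2, cond_true, min_eq_left h2]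
    · have : Nat.ble t (Nat.log 2 (2 * h)) = false := by
        rw [← Bool.not_eq_true, Nat.ble_eq]; exact h2
      rw [this, cond_false, min_eq_right (not_le.1 h2).le]
  · have : Nat.ble (t + 2) (2 * Nat.log 2 (2 * h)) = false := by
      rw [← Bool.not_eq_true, Nat.ble_eq]; exact h1
    rw [if_neg h1, this, cond_false]

def mA (h E : ℕ) : ℕ → ℕ
  | 0 => 0
  | t + 1 => mx (mA h E t) ((2 * h - 1 - t) * (kp E t + 1))

theorem le_mA (h E : ℕ) : ∀ n t, t < n → (2 * h - 1 - t) * (kp E t + 1) ≤ mA h E n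
  | 0, _, ht => absurd ht (Nat.not_lt_zero _)
  | n + 1, t, ht => by
    rcases Nat.lt_succ_iff_lt_or_eq.1 ht with h1 | rfl
    · exact (le_mA h E n t h1).trans (le_mx_left _ _)
    · exact le_mx_right _ _

def mB (h : ℕ) : ℕ → ℕ
  | 0 => 0
  | e + 1 => mx (mB h e) ((e + 1) * (h + 1 - 2 ^ e))

theorem le_mB (h : ℕ) : ∀ n e, e < n → (e + 1) * (h + 1 - 2 ^ e) ≤ mB h n
  | 0, _, ht => absurd ht (Nat.not_lt_zero _)
  | n + 1, e, ht => by
    rcases Nat.lt_succ_iff_lt_or_eq.1 ht with h1 | rfl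
    · exact (le_mB h n e h1).trans (le_mx_left _ _)
    · exact le_mx_right _ _

/-- the product of the odd numbers up to `2 * h + 1` -/
def dd : ℕ → ℕ
  | 0 => 1
  | h + 1 => dd h * (2 * h + 3)

theorem fact_eq : ∀ h : ℕ, (2 * h + 1)! = dd h * (2 ^ h * h !)
  | 0 => rfl
  | h + 1 => by
    have e : 2 * (h + 1) + 1 = 2 * h + 1 + 1 + 1 := by ring
    rw [e, factorial_succ, factorial_succ, fact_eq h, dd, factorial_succ]
    ring

def ex (h E : ℕ) : ℕ := 2 * h - 1 + mA h E (2 * E + 1) + mB h E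

def ok (h D : ℕ) : Bool := Nat.blt ((2 * h + 1) ^ 2 * 2 ^ ex h (Nat.log2 (2 * h))) (D ^ 4)

def go : ℕ → ℕ → ℕ → Bool
  | 0, _, _ => true
  | n + 1, h, D => ok h D && go n (h + 1) (D * (2 * h + 3))

theorem go_spec : ∀ n h, go n h (dd h) = true → ∀ k, k < n → ok (h + k) (dd (h + k)) = true
  | 0, _, _, _, hk => absurd hk (Nat.not_lt_zero _)
  | n + 1, h, e, k, hk => by
    rw [go, Bool.and_eq_true] at e
    cases k with
    | zero => exact e.1
    | succ k =>
      have := go_spec n (h + 1) e.2 k (Nat.lt_of_succ_lt_succ hk)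
      rwa [add_assoc, add_comm 1 k] at this

theorem go_all : go 1200 1 3 = true := by decide +kernel

theorem ex_le {h a t e w : ℕ} (p : Par h a t e w) :
    a + (a - t) * (kap h t + 1) + e * w ≤ ex h (Nat.log 2 (2 * h)) := by
  obtain ⟨ta, ah, et, ew⟩ := p
  set E := Nat.log 2 (2 * h) with hE
  have h1 : (a - t) * (kap h t + 1) ≤ mA h E (2 * E + 1) := by
    rw [← kp_eq, ← hE]
    by_cases ht : t < 2 * E + 1
    · exact (Nat.mul_le_mul_right _ (by omega)).trans (le_mA h E _ t ht)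
    · refine le_trans ?_ (le_mA h E _ (2 * E) (Nat.lt_succ_self _))
      have k : ∀ s, 2 * E ≤ s → kp E s = E + 1 := fun s hs => by
        have : Nat.ble (s + 2) (2 * E) = false := by
          rw [← Bool.not_eq_true, Nat.ble_eq]; omega
        rw [kp, this, cond_false]
      rw [k t (by omega), k _ le_rfl]
      exact Nat.mul_le_mul_right _ (by omega)
  have h2 : e * w ≤ mB h E := by
    rcases Nat.eq_zero_or_pos w with rfl | hw
    · simp
    cases e with
    | zero => simp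
    | succ e =>
      have h3 : 2 ^ (e + 1) + 2 * w ≤ 2 * h + 2 := ew.resolve_left (Nat.succ_ne_zero _)
      have h4 : e + 1 ≤ E := Nat.le_log_of_pow_le (by norm_num) (by omega)
      refine le_trans (Nat.mul_le_mul_left _ ?_) (le_mB h E e h4)
      rw [pow_succ] at h3
      omega
  unfold ex
  omega

theorem jobNumS : JobNumS := by
  intro h h1 h2 a t e w p
  obtain ⟨k, rfl⟩ : ∃ k, h = 1 + k := ⟨h - 1, by omega⟩
  have o := go_spec 1200 1 go_all k (by omega)
  rw [ok, Nat.blt_eq, Nat.log2_eq_log_two] at o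
  have x := ex_le p
  generalize 1 + k = h at *
  rw [fact_eq]
  have pos : 0 < (2 ^ h * h !) ^ 4 := by positivity
  calc (2 * h + 1) ^ 2 * (2 ^ h * h !) ^ 4 * 2 ^ (a + (a - t) * (kap h t + 1) + e * w)
      ≤ (2 * h + 1) ^ 2 * (2 ^ h * h !) ^ 4 * 2 ^ ex h (Nat.log 2 (2 * h)) :=
        Nat.mul_le_mul_left _ (Nat.pow_le_pow_right (by norm_num) x)
    _ = (2 * h + 1) ^ 2 * 2 ^ ex h (Nat.log 2 (2 * h)) * (2 ^ h * h !) ^ 4 := by ring
    _ < dd h ^ 4 * (2 ^ h * h !) ^ 4 := Nat.mul_lt_mul_of_pos_right o pos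
    _ = (dd h * (2 ^ h * h !)) ^ 4 := by rw [mul_pow (dd h)]

end H89.IVNumS
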