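/- T3 tower (row S5228), slots B1 and B2. -/
import Cfsg.Agent.H11.T3Spec

set_option autoImplicit false
set_option linter.unusedSimpArgs false
set_option linter.unnecessarySeqFocus false

open Subgroup H90.RF H11.T3 H11.T3.Co Cfsg
open H90.U5 (ext_of nor_of_cm conj_aY lg_aY)

namespace H89.T3B

section Gen
variable {P : Type*} [Group P] {U E X : Subgroup P} {p q φ : P → ZMod 3}

/-- additive on `U` -/
def Ad (U : Subgroup P) (p : P → ZMod 3) : Prop := ∀ a ∈ U, ∀ b ∈ U, p (a * b) = p a + p b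

theorem Ad.pow (h : Ad U p) {a : P} (ha : a ∈ U) (n : ℕ) : p (a ^ n) = n * p a := by
  induction n with
  | zero =>
    have := h 1 U.one_mem 1 U.one_mem
    rw [mul_one] at this
    simpa using this
  | succ n ih => rw [pow_succ, h _ (pow_mem ha n) _ ha, ih]; push_cast; ring

theorem lin (hp : Ad U p) (hq : Ad U q) (hφ : Ad U φ) {v w : P} (hv : v ∈ U) (hw : w ∈ U)
    (p1 : p v = 1) (q1 : q v = 0) (p2 : p w = 0) (q2 : q w = 1)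
    (k : ∀ u ∈ U, p u = 0 → q u = 0 → φ u = 0) : ∀ u ∈ U, φ u = φ v * p u + φ w * q u := by
  intro u hu
  have e : ∀ ψ, Ad U ψ → ψ (u * v ^ (-p u).val * w ^ (-q u).val) = ψ u - p u * ψ v - q u * ψ w :=
    fun ψ h => by
      rw [h _ (mul_mem hu (pow_mem hv _)) _ (pow_mem hw _), h _ hu _ (pow_mem hv _), h.pow hv, h.pow hw,
        ZMod.natCast_zmod_val, ZMod.natCast_zmod_val]
      ring
  have := k _ (mul_mem (mul_mem hu (pow_mem hv (-p u).val)) (pow_mem hw (-q u).val))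
    (by rw [e p hp, p1, p2]; ring) (by rw [e q hq, q1, q2]; ring)
  rw [e φ hφ] at this
  linear_combination this

/-- an element of the normal closure of `σ` that acts as `-1` on a two-dimensional section -/
theorem neg_one {Y : Subgroup (Equiv.Perm P)} (lg : Lg E Y) (UE : U ≤ E) (hp : Ad U p) (hq : Ad U q)
    {v w : P} (hv : v ∈ U) (hw : w ∈ U) (p1 : p v = 1) (q1 : q v = 0) (p2 : p w = 0) (q2 : q w = 1)
    (pU : ∀ α ∈ Y, Pr α U) (pK : ∀ α ∈ Y, ∀ u ∈ U, p u = 0 → q u = 0 → p (α u) = 0 ∧ q (α u) = 0)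
    (pX : ∀ α ∈ Y, ∀ u ∈ E, u ∈ X → α u ∈ X) {σ : Equiv.Perm P} (hσ : σ ∈ Y)
    (σX : ∀ u ∈ E, u⁻¹ * σ u ∈ X) {ε : ZMod 3} (hε : ε ≠ 0)
    (σU : ∀ u ∈ U, p (σ u) = p u ∧ q (σ u) = q u + ε * p u) {α : Equiv.Perm P} (hα : α ∈ Y)
    (mv : ∃ u ∈ U, p u = 0 ∧ p (α u) ≠ 0) :
    ∃ β ∈ Y, (∀ u ∈ E, u⁻¹ * β u ∈ X) ∧ ∀ u ∈ U, p (β u) = -p u ∧ q (β u) = -q u := by
  have mx : ∀ γ ∈ Y, ∃ m n r s, ∀ u ∈ U, p (γ u) = m * p u + n * q u ∧ q (γ u) = r * p u + s * q u :=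
    fun γ hγ => by
      have ad : ∀ ψ, Ad U ψ → Ad U fun u => ψ (γ u) := fun ψ h a ha b hb => by
        show ψ (γ (a * b)) = _
        rw [(lg.au γ hγ).mul a (UE ha) b (UE hb), h _ (pU γ hγ a ha) _ (pU γ hγ b hb)]
      exact ⟨_, _, _, _, fun u hu =>
        ⟨lin hp hq (ad p hp) hv hw p1 q1 p2 q2 (fun u hu a b => (pK γ hγ u hu a b).1) u hu,
          lin hp hq (ad q hq) hv hw p1 q1 p2 q2 (fun u hu a b => (pK γ hγ u hu a b).2) u hu⟩⟩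
  have nm : ∀ γ ∈ Y, ∀ δ ∈ Y, (∀ u ∈ E, u⁻¹ * γ u ∈ X) → (∀ u ∈ E, u⁻¹ * δ u ∈ X) →
      ∀ u ∈ E, u⁻¹ * (γ * δ) u ∈ X := fun γ _ δ hδ h1 h2 u hu => by
    simpa [mul_assoc] using mul_mem (h2 u hu) (h1 _ ((lg.au δ hδ).mem u hu))
  have hτ : α * σ * α⁻¹ ∈ Y := mul_mem (mul_mem hα hσ) (inv_mem hα)
  have τX : ∀ u ∈ E, u⁻¹ * (α * σ * α⁻¹) u ∈ X := fun u hu => by
    obtain ⟨t, ht, rfl⟩ := (lg.au α hα).sur u hu
    have h1 := (lg.au σ hσ).mem t ht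
    have := pX α hα _ (mul_mem (inv_mem ht) h1) (σX t ht)
    rw [(lg.au α hα).mul _ (inv_mem ht) _ h1, (lg.au α hα).inv ht] at this
    simpa using this
  have τα : ∀ u, (α * σ * α⁻¹) (α u) = α (σ u) := fun u => by simp
  obtain ⟨a, b, c, d, hA⟩ := mx α hα
  obtain ⟨a', b', c', d', hA'⟩ := mx _ (inv_mem hα)
  obtain ⟨m, n, r, s, hT⟩ := mx _ hτ
  generalize α * σ * α⁻¹ = τ at hτ τX τα hT
  have hb : b ≠ 0 := by
    obtain ⟨u, hu, e, e'⟩ := mv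
    rw [(hA u hu).1, e, mul_zero, zero_add] at e'
    exact left_ne_zero_of_mul e'
  have hD : a * d - b * c ≠ 0 := fun e => by
    have e1 := hA _ (pU _ (inv_mem hα) v hv)
    have e2 := hA _ (pU _ (inv_mem hα) w hw)
    rw [(hA' v hv).1, (hA' v hv).2, show α (α⁻¹ v) = v by simp, p1, q1] at e1
    rw [(hA' w hw).1, (hA' w hw).2, show α (α⁻¹ w) = w by simp, p2, q2] at e2
    refine one_ne_zero (α := ZMod 3) ?_
    linear_combination (a' * d' - b' * c') * e + e1.1 + (a * a' + b * c') * e2.2 -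
      (a * b' + b * d') * e1.2
  have e1 := hT _ (pU α hα v hv)
  have e2 := hT _ (pU α hα w hw)
  rw [τα, (hA _ (pU σ hσ v hv)).1, (hA _ (pU σ hσ v hv)).2, (σU v hv).1, (σU v hv).2, (hA v hv).1,
    (hA v hv).2, p1, q1] at e1
  rw [τα, (hA _ (pU σ hσ w hw)).1, (hA _ (pU σ hσ w hw)).2, (σU w hw).1, (σU w hw).2, (hA w hw).1,
    (hA w hw).2, p2, q2] at e2
  have hn : n * (a * d - b * c) = -(ε * b * b) := by linear_combination b * e1.1 - a * e2.1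
  have hm : (m - 1) * (a * d - b * c) = ε * b * d := by linear_combination c * e2.1 - d * e1.1
  have hr : r * (a * d - b * c) = ε * d * d := by linear_combination c * e2.2 - d * e1.2
  have hs : (s - 1) * (a * d - b * c) = -(ε * b * d) := by linear_combination b * e1.2 - a * e2.2
  have tr : m + s = 2 := mul_right_cancel₀ hD (by linear_combination hm + hs)
  have dt : m * s - n * r = 1 := mul_right_cancel₀ (mul_ne_zero hD hD) (by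
    linear_combination (s - 1) * (a * d - b * c) * hm + ε * b * d * hs - r * (a * d - b * c) * hn +
      ε * b * b * hr + (a * d - b * c) ^ 2 * tr)
  have n0 : ε * n ≠ 0 := mul_ne_zero hε fun e => by
    rw [e, zero_mul, eq_comm, neg_eq_zero] at hn
    exact mul_ne_zero (mul_ne_zero hε hb) hb hn
  have fin : ∀ γ ∈ Y, (∀ u ∈ E, u⁻¹ * γ u ∈ X) → ∀ k : ZMod 3, 2 + k * (ε * n) = 0 →
      (∀ u ∈ U, p (γ u) = p (τ u) ∧ q (γ u) = q (τ u) + k * ε * p (τ u)) →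
      ∃ β ∈ Y, (∀ u ∈ E, u⁻¹ * β u ∈ X) ∧ ∀ u ∈ U, p (β u) = -p u ∧ q (β u) = -q u :=
    fun γ hγ γX k hk e => ⟨γ * γ, mul_mem hγ hγ, nm γ hγ γ hγ γX γX, fun u hu => by
      have h1 := pU γ hγ u hu
      rw [Equiv.Perm.mul_apply, (e _ h1).1, (e _ h1).2, (hT _ h1).1, (hT _ h1).2, (e u hu).1, (e u hu).2,
        (hT u hu).1, (hT u hu).2]
      constructor
      · linear_combination (m * p u + n * q u) * (tr + hk) - p u * dt
      · linear_combination ((r + k * ε * m) * p u + (s + k * ε * n) * q u) * (tr + hk) - q u * dt⟩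
  rcases z3 (ε * n) with e | e | e
  · exact absurd e n0
  · exact fin (σ * τ) (mul_mem hσ hτ) (nm σ hσ τ hτ σX τX) 1 (by rw [e]; decide) fun u hu => by
      rw [Equiv.Perm.mul_apply, one_mul]; exact σU _ (pU τ hτ u hu)
  · refine fin (σ * (σ * τ)) (mul_mem hσ (mul_mem hσ hτ))
      (nm σ hσ _ (mul_mem hσ hτ) σX (nm σ hσ τ hτ σX τX)) 2 (by rw [e]; decide) fun u hu => ?_
    have h1 := pU τ hτ u hu
    have h2 := pU σ hσ _ h1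
    rw [Equiv.Perm.mul_apply, Equiv.Perm.mul_apply, (σU _ h2).1, (σU _ h2).2, (σU _ h1).1, (σU _ h1).2]
    exact ⟨rfl, by ring⟩

end Gen

/-- extension to the whole group -/
theorem ext_top (aS : AS) {F : FusionSystem (⊤ : Subgroup Co)} (hF : F.IsSaturated 3) {E : Subgroup Co}
    [E.Normal] (h6 : sZ6 ≤ E) {β : Equiv.Perm Co} (hβ : β ∈ aY F E) (p6 : Pr β sZ6)
    (p9 : ∀ u ∈ E, u ∈ sE2 → β u ∈ sE2) : ∃ y ∈ aY F ⊤, ∀ c ∈ E, β c = y c := by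
  have a := (lg_aY E).au β hβ
  refine ext_of pgroup_Co hF hβ (nor_of_cm pgroup_Co hF (fun k => z0 k ⊓ E) 10 (bot_inf_eq E)
    (le_inf le_top le_rfl) (fun _ _ => inf_le_right) (fun k => inf_le_inf_right _ (z0_mono k))
    (fun k => @normal_inf_normal _ _ _ _ (z0_normal k) _)
    (fun k hk u hu s => ⟨z0_cm k hk u hu.1 s, h6 (P_le_Z6 (cm_P s u))⟩) hβ fun k hk u hu =>
      ⟨?_, a.mem u hu.2⟩)
  rcases Nat.lt_or_ge k 9 with h | h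
  · exact aS.z6 β (a.restrict h6 p6) k (by omega) u hu.1
  · interval_cases k
    exacts [p9 u hu.2 hu.1, trivial]

theorem jobB1 : JobB1 := by
  rintro aS F hF X hX pX ⟨α, hα, mv⟩
  have lg := lg_aY (E := F) sE1
  have UE : sZ3 ≤ sE1 := fun _ h => h.2.1
  obtain ⟨σ, hσ, eσ⟩ := conj_aY (X := sE1) F (xa 1)
  have pU : ∀ γ ∈ aY F sE1, Pr γ sZ3 := fun γ hγ => (aS.e1 γ (lg.au γ hγ)).2.1
  obtain ⟨β, hβ, βX, eβ⟩ := neg_one (p := Co.h) (q := Co.i) (X := X) lg UE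
    (fun a ⟨_, _, _, _, _, _, _⟩ b ⟨_, _, _, _, _, _, _⟩ => by simp [*])
    (fun a ⟨_, _, _, _, _, _, _⟩ b ⟨_, _, _, _, _, _, _⟩ => by simp [*])
    (v := xh 1) (w := xi 1) ⟨rfl, rfl, rfl, rfl, rfl, rfl, rfl⟩ ⟨rfl, rfl, rfl, rfl, rfl, rfl, rfl⟩
    rfl rfl rfl rfl pU
    (fun γ hγ u ⟨h1, h2, h3, h4, h5, h6, h7⟩ h8 h9 =>
      ((aS.e1 γ (lg.au γ hγ)).1 u ⟨h1, h2, h3, h4, h5, h6, h7, h8, h9⟩).2.2.2.2.2.2.2)
    pX hσ (fun u hu => eσ u hu ▸ hX (cm_P (xa 1) u)) (ε := -1) (by decide)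
    (fun u hu => by
      obtain ⟨h1, h2, h3, h4, h5, h6, h7⟩ := id hu
      rw [eσ u (UE hu), conj_eq_cm]
      constructor <;> simp [cm_b, cm_a, cm_d, cm_c, cm_e, cm_h, cm_i, xa, *]) hα (by
      by_contra! k
      refine mv fun u hu => ?_
      obtain ⟨h1, h2, h3, h4, h5, h6, h7⟩ := pU α hα u (Z2_le_Z3 hu)
      exact ⟨h1, h2, h3, h4, h5, h6, h7, k u (Z2_le_Z3 hu) hu.2.2.2.2.2.2.2⟩)
  have p6 : Pr β sZ6 := (aS.e1 β (lg.au β hβ)).2.2 fun u hu => by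
    obtain ⟨h1, h2, h3, h4, h5, h6, h7⟩ := pU β hβ u (Z2_le_Z3 hu)
    exact ⟨h1, h2, h3, h4, h5, h6, h7, by rw [(eβ u (Z2_le_Z3 hu)).1, hu.2.2.2.2.2.2.2, neg_zero]⟩
  obtain ⟨y, hy, e⟩ := ext_top aS hF Z6_le_E1 hβ p6 fun u h1 h2 => (p6 u ⟨h2, h1⟩).1
  obtain ⟨-, -, s, t, -, -, l⟩ := aS.top y ((lg_aY ⊤).au y hy)
  have e1 := l.h (xh 1) ⟨rfl, rfl, rfl, rfl, rfl, rfl, rfl⟩
  have e2 := l.i (xi 1) ⟨rfl, rfl, rfl, rfl, rfl, rfl, rfl, rfl⟩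
  rw [← e _ rfl, (eβ _ ⟨rfl, rfl, rfl, rfl, rfl, rfl, rfl⟩).1] at e1
  rw [← e _ rfl, (eβ _ ⟨rfl, rfl, rfl, rfl, rfl, rfl, rfl⟩).2] at e2
  simp only [xh, xi, mul_one] at e1 e2
  obtain rfl : t = -1 := e1.symm
  obtain rfl : s = 1 := by linear_combination e2
  exact ⟨y, hy, l, fun u hu => e u hu ▸ βX u hu⟩

theorem jobB2 : JobB2 := by
  rintro aS F hF X hX pX ⟨α, hα, mv⟩
  have lg := lg_aY (E := F) sE2
  have UE : sZ2 ≤ sE2 := fun _ h => h.1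
  obtain ⟨σ, hσ, eσ⟩ := conj_aY (X := sE2) F (xb 1)
  have pU : ∀ γ ∈ aY F sE2, Pr γ sZ2 := fun γ hγ => (aS.e2 γ (lg.au γ hγ)).1
  obtain ⟨β, hβ, βX, eβ⟩ := neg_one (p := Co.i) (q := Co.j) (X := X) lg UE
    (fun a ⟨_, _, _, _, _, _, _, _⟩ b ⟨_, _, _, _, _, _, _, _⟩ => by simp [*])
    (fun a ⟨_, _, _, _, _, _, _, _⟩ b ⟨_, _, _, _, _, _, _, _⟩ => by simp [*])
    (v := xi 1) (w := xj 1) ⟨rfl, rfl, rfl, rfl, rfl, rfl, rfl, rfl⟩ ⟨rfl, rfl, rfl, rfl, rfl, rfl, rfl, rfl⟩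
    rfl rfl rfl rfl pU
    (fun γ hγ u ⟨h1, h2, h3, h4, h5, h6, h7, h8⟩ h9 h0 => by
      obtain rfl : u = 1 := Co.ext h1 h2 h3 h4 h5 h6 h7 h8 h9 h0
      rw [(lg.au γ hγ).one]
      exact ⟨rfl, rfl⟩)
    pX hσ (fun u hu => eσ u hu ▸ hX (cm_P (xb 1) u)) (ε := 1) (by decide)
    (fun u hu => by
      obtain ⟨h1, h2, h3, h4, h5, h6, h7, h8⟩ := id hu
      rw [eσ u (UE hu), conj_eq_cm]
      constructor <;> simp [cm_b, cm_a, cm_d, cm_c, cm_e, cm_h, cm_i, cm_j, xb, *]) hα (by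
      by_contra! k
      refine mv fun u hu => ?_
      obtain ⟨h1, h2, h3, h4, h5, h6, h7, h8⟩ := pU α hα u (Z1_le_Z2 hu)
      exact ⟨h1, h2, h3, h4, h5, h6, h7, h8, k u (Z1_le_Z2 hu) hu.2.2.2.2.2.2.2.2⟩)
  have p6 : Pr β sZ6 := (aS.e2 β (lg.au β hβ)).2 fun u hu => by
    obtain ⟨h1, h2, h3, h4, h5, h6, h7, h8⟩ := pU β hβ u (Z1_le_Z2 hu)
    exact ⟨h1, h2, h3, h4, h5, h6, h7, h8, by rw [(eβ u (Z1_le_Z2 hu)).1, hu.2.2.2.2.2.2.2.2, neg_zero]⟩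
  obtain ⟨y, hy, e⟩ := ext_top aS hF Z6_le_E2 hβ p6 fun u h1 _ => (lg.au β hβ).mem u h1
  obtain ⟨-, -, s, t, -, -, l⟩ := aS.top y ((lg_aY ⊤).au y hy)
  have e1 := l.j (xj 1) ⟨rfl, rfl, rfl, rfl, rfl, rfl, rfl, rfl, rfl⟩
  have e2 := l.i (xi 1) ⟨rfl, rfl, rfl, rfl, rfl, rfl, rfl, rfl⟩
  rw [← e _ rfl, (eβ _ ⟨rfl, rfl, rfl, rfl, rfl, rfl, rfl, rfl⟩).2] at e1
  rw [← e _ rfl, (eβ _ ⟨rfl, rfl, rfl, rfl, rfl, rfl, rfl, rfl⟩).1] at e2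
  simp only [xj, xi, mul_one] at e1 e2
  obtain rfl : s = -1 := e1.symm
  obtain rfl : t = 1 := by linear_combination e2
  exact ⟨y, hy, l, fun u hu => e u hu ▸ βX u hu⟩

end H89.T3B
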