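/- An element of order three with a single Jordan block of size three acting on a four-group:
the frame of eigenvectors. -/
import Cfsg.Agent.H23.ThomSpec

set_option autoImplicit false
open Cfsg Subgroup

namespace H89.Th
variable {S : Type*} [Group S] {E : Type*} [AddCommGroup E] [Module (ZMod 3) E]
  {ρ : Representation (ZMod 3) S E} {b t u : S}

theorem h3 (v : E) : (3 : ZMod 3) • v = 0 := by rw [show (3 : ZMod 3) = 0 from rfl, zero_smul]

theorem act (g h : S) (v : E) : ρ (g * h) v = ρ g (ρ h v) := by simp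

theorem act_eq {g h g' h' : S} (e : g * h = g' * h') (v : E) : ρ g (ρ h v) = ρ g' (ρ h' v) := by
  rw [← act, e, act]

theorem act_inv (g : S) (v : E) : ρ g⁻¹ (ρ g v) = v := by rw [← act]; simp

theorem act_inv' (g : S) (v : E) : ρ g (ρ g⁻¹ v) = v := by rw [← act]; simp

theorem act_ne (g : S) {v : E} (h : v ≠ 0) : ρ g v ≠ 0 := fun e => h (by
  rw [← act_inv (ρ := ρ) g v, e, map_zero])

theorem neg_ne {v : E} (h : v ≠ 0) : -v ≠ v := fun e => h (by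
  linear_combination (norm := module) e + h3 v)

theorem sgn {g : S} {v w : E} (hw : w ≠ 0) (h : ∃ a : ZMod 3, ρ g w = a • v) :
    ρ g w = v ∨ ρ g w = -v := by
  obtain ⟨a, h⟩ := h
  have : a = 0 ∨ a = 1 ∨ a = -1 := by clear h; revert a; decide
  rcases this with rfl | rfl | rfl
  · exact absurd (h.trans (zero_smul _ _)) (act_ne g hw)
  · exact .inl (h.trans (one_smul _ _))
  · exact .inr (h.trans (neg_one_smul _ _))

theorem rel3 [Finite E] (h9 : Nat.card (LinearMap.range (ρ b - 1)) = 9) (x y w : E) :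
    ∃ a c d : ZMod 3, ¬ (a = 0 ∧ c = 0 ∧ d = 0) ∧
      a • ρ b x + c • ρ b y + d • ρ b w = a • x + c • y + d • w := by
  let f : ZMod 3 × ZMod 3 × ZMod 3 → LinearMap.range (ρ b - 1) := fun p =>
    ⟨_, p.1 • x + p.2.1 • y + p.2.2 • w, rfl⟩
  have : ¬ Function.Injective f := fun i => by
    have := Nat.card_le_card_of_injective f i
    rw [h9] at this
    simp at this
  obtain ⟨p, q, e, ne⟩ := Function.not_injective_iff.1 this
  refine ⟨p.1 - q.1, p.2.1 - q.2.1, p.2.2 - q.2.2, fun ⟨h1, h2, h3⟩ => ne (Prod.ext (sub_eq_zero.1 h1)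
    (Prod.ext (sub_eq_zero.1 h2) (sub_eq_zero.1 h3))), ?_⟩
  have := congrArg Subtype.val e
  simp only [f, LinearMap.sub_apply, Module.End.one_apply, map_add, map_smul] at this
  linear_combination (norm := module) this

/-- `b` permutes the involutions `t`, `u`, `t u` of a four-group cyclically -/
structure Tr (b t u : S) : Prop where
  ne : t ≠ 1
  tt : t * t = 1
  uu : u * u = 1
  tu : t * u = u * t
  bt : b * t = u * b
  bu : b * u = t * u * b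

theorem exists_tr [Finite S] {N : Subgroup S} (hN : IsPGroup 2 N) (hc : ∀ x ∈ N, ∀ y ∈ N, x * y = y * x)
    (b3 : b ^ 3 = 1) (hn : b ∈ normalizer (N : Set S)) (hb : b ∉ centralizer (N : Set S)) :
    ∃ t ∈ N, ∃ u ∈ N, Tr b t u := by
  obtain ⟨x, hx, hxb⟩ : ∃ x ∈ N, x * b ≠ b * x := by
    by_contra h
    push Not at h
    exact hb (mem_centralizer_iff.2 h)
  have cj : ∀ y ∈ N, b * y * b⁻¹ ∈ N := fun y hy => (mem_normalizer_iff.1 hn y).1 hy
  have b3' : b * b * b = 1 := by rw [← pow_three', b3]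
  set y := x * (b * x * b⁻¹)⁻¹ with hy
  have yN : y ∈ N := N.mul_mem hx (N.inv_mem (cj x hx))
  have y1 : y ≠ 1 := fun e => hxb (by rw [mul_inv_eq_one] at e; exact (eq_mul_inv_iff_mul_eq.1 e))
  have yy : y * (b * y * b⁻¹) * (b * (b * y * b⁻¹) * b⁻¹) = 1 := by
    have : b * (b * y * b⁻¹) * b⁻¹ = (b * (b * x * b⁻¹) * b⁻¹) * ((b * b * b) * x⁻¹ * (b * b * b)⁻¹) := by
      rw [hy]; group
    rw [this, b3', hy]; group
  obtain ⟨k, hk⟩ := IsPGroup.iff_orderOf.1 hN ⟨y, yN⟩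
  rw [← orderOf_coe] at hk
  obtain ⟨k, rfl⟩ : ∃ j, k = j + 1 := Nat.exists_eq_succ_of_ne_zero fun e =>
    y1 (orderOf_eq_one_iff.1 (by rw [hk, e]; rfl))
  change orderOf y = _ at hk
  have sq : y ^ 2 ^ k * y ^ 2 ^ k = 1 := by rw [← pow_add, ← two_mul, ← pow_succ', ← hk, pow_orderOf_eq_one]
  have tN := N.pow_mem yN (2 ^ k)
  have uu : (b * y ^ 2 ^ k * b⁻¹) * (b * y ^ 2 ^ k * b⁻¹) = 1 := by
    rw [conj_mul, sq]; group
  refine ⟨_, tN, _, cj _ tN, pow_ne_one_of_lt_orderOf (by positivity) (by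
    rw [hk]; exact Nat.pow_lt_pow_right one_lt_two k.lt_succ_self), sq, uu, hc _ tN _ (cj _ tN), by group, ?_⟩
  have c1 : Commute y (b * y * b⁻¹) := hc _ yN _ (cj _ yN)
  have c2 : Commute (y * (b * y * b⁻¹)) (b * (b * y * b⁻¹) * b⁻¹) :=
    hc _ (N.mul_mem yN (cj _ yN)) _ (cj _ (cj _ yN))
  have := congrArg (· ^ 2 ^ k) yy
  simp only [c2.mul_pow, c1.mul_pow, conj_pow, one_pow] at this
  generalize y ^ 2 ^ k = s at *
  have e := eq_inv_of_mul_eq_one_right this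
  rw [mul_inv_rev, inv_eq_of_mul_eq_one_right sq, inv_eq_of_mul_eq_one_right uu, ← hc _ tN _ (cj _ tN)] at e
  rw [← e]; group

/-- the four eigenspaces are independent -/
theorem ind {w0 w1 w2 w3 : E} (t0 : ρ t w0 = w0) (u0 : ρ u w0 = w0) (t1 : ρ t w1 = w1)
    (u1 : ρ u w1 = -w1) (t2 : ρ t w2 = -w2) (u2 : ρ u w2 = w2) (t3 : ρ t w3 = -w3) (u3 : ρ u w3 = -w3)
    (e : w0 + w1 + w2 + w3 = 0) : w0 = 0 ∧ w1 = 0 ∧ w2 = 0 ∧ w3 = 0 := by
  have e1 := congrArg (ρ t) e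
  have e2 := congrArg (ρ u) e
  have e3 := congrArg (ρ t) e2
  simp only [map_add, map_neg, map_zero, t0, u0, t1, u1, t2, u2, t3, u3] at e1 e2 e3
  refine ⟨?_, ?_, ?_, ?_⟩
  · linear_combination (norm := module) e + e1 + e2 + e3 - h3 w0
  · linear_combination (norm := module) e + e1 - e2 - e3 - h3 w1
  · linear_combination (norm := module) e - e1 + e2 - e3 - h3 w2
  · linear_combination (norm := module) e - e1 - e2 + e3 - h3 w3

/-- the frame of eigenvectors -/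
structure Fr (ρ : Representation (ZMod 3) S E) (b t u : S) (v₁ v₂ v₃ : E) : Prop where
  ne : v₁ ≠ 0
  b1 : ρ b v₁ = v₂
  b2 : ρ b v₂ = v₃
  b3 : ρ b v₃ = v₁
  t1 : ρ t v₁ = v₁
  u1 : ρ u v₁ = -v₁
  t2 : ρ t v₂ = -v₂
  u2 : ρ u v₂ = v₂
  t3 : ρ t v₃ = -v₃
  u3 : ρ u v₃ = -v₃
  e1 : ∀ w, ρ t w = w → ρ u w = -w → ∃ a : ZMod 3, w = a • v₁
  e2 : ∀ w, ρ t w = -w → ρ u w = w → ∃ a : ZMod 3, w = a • v₂
  e3 : ∀ w, ρ t w = -w → ρ u w = -w → ∃ a : ZMod 3, w = a • v₃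
  e0 : ∀ w, ρ t w = w → ρ u w = w → ρ b w = w
  dec : ∀ w, ∃ w₀, ∃ a c d : ZMod 3, ρ t w₀ = w₀ ∧ ρ u w₀ = w₀ ∧ w = w₀ + a • v₁ + c • v₂ + d • v₃

theorem exists_fr [Finite E] (hρ : Function.Injective ρ) (b3 : b ^ 3 = 1)
    (h9 : Nat.card (LinearMap.range (ρ b - 1)) = 9) (T : Tr b t u) :
    ∃ v₁ v₂ v₃, Fr ρ b t u v₁ v₂ v₃ := by
  have tt : ∀ w, ρ t (ρ t w) = w := fun w => by rw [← act, T.tt]; simp
  have uu : ∀ w, ρ u (ρ u w) = w := fun w => by rw [← act, T.uu]; simp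
  have tu : ∀ w, ρ u (ρ t w) = ρ t (ρ u w) := act_eq T.tu.symm
  have bt : ∀ w, ρ u (ρ b w) = ρ b (ρ t w) := act_eq T.bt.symm
  have bu : ∀ w, ρ t (ρ b w) = ρ b (ρ t (ρ u w)) := fun w => by
    rw [← act b, ← act, ← act, T.bt, mul_assoc u, T.bu, ← mul_assoc, ← mul_assoc, ← T.tu,
      mul_assoc t u, T.uu, mul_one]
  have bbb : ∀ w, ρ b (ρ b (ρ b w)) = w := fun w => by rw [← act, ← act, ← pow_three', b3]; simp
  have s1 : ∀ w, ρ t w = w → ρ u w = -w → ρ t (ρ b w) = -ρ b w ∧ ρ u (ρ b w) = ρ b w := fun w h k => by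
    simp [bt, bu, h, k]
  have s2 : ∀ w, ρ t w = -w → ρ u w = w → ρ t (ρ b w) = -ρ b w ∧ ρ u (ρ b w) = -ρ b w := fun w h k => by
    simp [bt, bu, h, k]
  have s3 : ∀ w, ρ t w = -w → ρ u w = -w → ρ t (ρ b w) = ρ b w ∧ ρ u (ρ b w) = -ρ b w := fun w h k => by
    simp [bt, bu, h, k]
  obtain ⟨v, v0, t1, u1⟩ : ∃ v, v ≠ 0 ∧ ρ t v = v ∧ ρ u v = -v := by
    by_contra h
    push Not at h
    refine T.ne (hρ (LinearMap.ext fun w => ?_))
    have a2 : w - ρ t w + ρ u (w - ρ t w) = 0 := by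
      by_contra c
      obtain ⟨p, q⟩ := s2 (w - ρ t w + ρ u (w - ρ t w)) (by simp [tu, tt]; abel) (by simp [tu, uu, add_comm])
      exact h _ (act_ne b (act_ne b c)) (s3 _ p q).1 (s3 _ p q).2
    have a3 : w - ρ t w - ρ u (w - ρ t w) = 0 := by
      by_contra c
      obtain ⟨p, q⟩ := s3 (w - ρ t w - ρ u (w - ρ t w)) (by simp [tu, tt]; abel) (by simp [tu, uu])
      exact h _ (act_ne b c) p q
    rw [map_one, Module.End.one_apply]
    linear_combination (norm := module) a2 + a3 - h3 (w - ρ t w)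
  obtain ⟨t2, u2⟩ := s1 v t1 u1
  obtain ⟨t3, u3⟩ := s2 _ t2 u2
  have n2 := act_ne (ρ := ρ) b v0
  have n3 := act_ne (ρ := ρ) b n2
  have e1 : ∀ w, ρ t w = w → ρ u w = -w → ∃ a : ZMod 3, w = a • v := fun w h k => by
    obtain ⟨a, c, d, hn, e⟩ := rel3 h9 w v (ρ b v)
    obtain ⟨-, i1, -, i3⟩ := ind (ρ := ρ) (t := t) (u := u) (w0 := 0) (w1 := -(a • w + c • v))
      (w2 := a • ρ b w + c • ρ b v - d • ρ b v) (w3 := d • ρ b (ρ b v)) (by simp) (by simp) (by simp [h, t1])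
      (by simp [k, u1]; abel) (by simp [s1 w h k, t2]; abel) (by simp [s1 w h k, u2]) (by simp [t3])
      (by simp [u3]) (by linear_combination (norm := module) e)
    have d0 := (smul_eq_zero.1 i3).resolve_right n3
    have a0 : a ≠ 0 := fun a0 => hn ⟨a0, (smul_eq_zero.1 (by simpa [a0] using i1)).resolve_right v0, d0⟩
    have aa : a * a = 1 := by revert a0; generalize a = a; revert a; decide
    refine ⟨-(a * c), ?_⟩
    linear_combination (norm := module) (-a) • i1 - aa • w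
  have e2 : ∀ w, ρ t w = -w → ρ u w = w → ∃ a : ZMod 3, w = a • ρ b v := fun w h k => by
    obtain ⟨p, q⟩ := s2 w h k
    obtain ⟨a, e⟩ := e1 _ (s3 _ p q).1 (s3 _ p q).2
    exact ⟨a, by rw [← map_smul, ← e, bbb]⟩
  have e3 : ∀ w, ρ t w = -w → ρ u w = -w → ∃ a : ZMod 3, w = a • ρ b (ρ b v) := fun w h k => by
    obtain ⟨a, e⟩ := e1 _ (s3 _ h k).1 (s3 _ h k).2
    exact ⟨a, by rw [← map_smul, ← map_smul, ← e, bbb]⟩
  refine ⟨v, _, _, v0, rfl, rfl, bbb v, t1, u1, t2, u2, t3, u3, e1, e2, e3, fun w h k => ?_, fun w => ?_⟩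
  · obtain ⟨a, c, d, hn, e⟩ := rel3 h9 v (ρ b v) w
    obtain ⟨i0, i1, -, i3⟩ := ind (ρ := ρ) (t := t) (u := u) (w0 := d • (ρ b w - w)) (w1 := -(a • v))
      (w2 := a • ρ b v - c • ρ b v) (w3 := c • ρ b (ρ b v)) (by simp [bu, h, k]) (by simp [bt, h, k])
      (by simp [t1]) (by simp [u1]) (by simp [t2]; abel) (by simp [u2]) (by simp [t3])
      (by simp [u3]) (by linear_combination (norm := module) e)
    exact sub_eq_zero.1 ((smul_eq_zero.1 i0).resolve_left fun d0 => hn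
      ⟨(smul_eq_zero.1 (neg_eq_zero.1 i1)).resolve_right v0, (smul_eq_zero.1 i3).resolve_right n3, d0⟩)
  · obtain ⟨a, ea⟩ := e1 (w + ρ t w - ρ u w - ρ t (ρ u w)) (by simp [tt]; abel) (by simp [tu, uu]; abel)
    obtain ⟨c, ec⟩ := e2 (w - ρ t w + ρ u w - ρ t (ρ u w)) (by simp [tt]; abel) (by simp [tu, uu]; abel)
    obtain ⟨d, ed⟩ := e3 (w - ρ t w - ρ u w + ρ t (ρ u w)) (by simp [tt]; abel) (by simp [tu, uu]; abel)
    refine ⟨w + ρ t w + ρ u w + ρ t (ρ u w), a, c, d, by simp [tt]; abel, by simp [tu, uu]; abel, ?_⟩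
    linear_combination (norm := module) ea + ec + ed - h3 w

namespace Fr
variable {v₁ v₂ v₃ : E} (F : Fr ρ b t u v₁ v₂ v₃) {g : S}
include F

theorem n2 : v₂ ≠ 0 := F.b1 ▸ act_ne b F.ne

theorem n3 : v₃ ≠ 0 := F.b2 ▸ act_ne b F.n2

theorem sg (ht : t * g = g * t) (hu : u * g = g * u) : (ρ g v₁ = v₁ ∨ ρ g v₁ = -v₁) ∧
    (ρ g v₂ = v₂ ∨ ρ g v₂ = -v₂) ∧ (ρ g v₃ = v₃ ∨ ρ g v₃ = -v₃) :=
  ⟨sgn F.ne (F.e1 _ (by rw [act_eq ht, F.t1]) (by rw [act_eq hu, F.u1, map_neg])),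
    sgn F.n2 (F.e2 _ (by rw [act_eq ht, F.t2, map_neg]) (by rw [act_eq hu, F.u2])),
    sgn F.n3 (F.e3 _ (by rw [act_eq ht, F.t3, map_neg]) (by rw [act_eq hu, F.u3, map_neg]))⟩

theorem comm_of (hρ : Function.Injective ρ) (ht : t * g = g * t) (hu : u * g = g * u)
    (h : (ρ g v₁ = v₁ ∧ ρ g v₂ = v₂ ∧ ρ g v₃ = v₃) ∨ (ρ g v₁ = -v₁ ∧ ρ g v₂ = -v₂ ∧ ρ g v₃ = -v₃)) :
    g * b = b * g := by
  refine hρ (LinearMap.ext fun w => ?_)
  obtain ⟨w, a, c, d, h1, h2, rfl⟩ := F.dec w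
  have := F.e0 (ρ g w) (by rw [act_eq ht, h1]) (by rw [act_eq hu, h2])
  rcases h with h | h <;> simp [h, F.b1, F.b2, F.b3, F.e0 w h1 h2, this]

/-- an element centralizing the four-group centralizes `b` modulo the four-group -/
theorem sg2 (hρ : Function.Injective ρ) (T : Tr b t u) (ht : t * g = g * t) (hu : u * g = g * u) :
    ∃ q, (q = 1 ∨ q = t ∨ q = u ∨ q = t * u) ∧ q * g * b = b * (q * g) := by
  have c : ∀ q, (q = 1 ∨ q = t ∨ q = u ∨ q = t * u) → t * (q * g) = q * g * t ∧ u * (q * g) = q * g * u := by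
    have tu : Commute t u := T.tu
    have tg : Commute t g := ht
    have ug : Commute u g := hu
    rintro q (rfl | rfl | rfl | rfl)
    exacts [by simp [ht, hu], ⟨(Commute.refl _).mul_right tg, tu.symm.mul_right ug⟩,
      ⟨tu.mul_right tg, (Commute.refl _).mul_right ug⟩,
      ⟨((Commute.refl _).mul_right tu).mul_right tg, (tu.symm.mul_right (Commute.refl _)).mul_right ug⟩]
  have k := fun q hq => F.comm_of hρ (c q hq).1 (c q hq).2
  obtain ⟨h1 | h1, h2 | h2, h3 | h3⟩ := F.sg ht hu <;>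
  first
  | (refine ⟨1, by simp, k _ (by simp) ?_⟩; simp [h1, h2, h3]; done)
  | (refine ⟨t, by simp, k _ (by simp) ?_⟩; simp [h1, h2, h3, F.t1, F.t2, F.t3]; done)
  | (refine ⟨u, by simp, k _ (by simp) ?_⟩; simp [h1, h2, h3, F.u1, F.u2, F.u3]; done)
  | (refine ⟨t * u, by simp, k _ (by simp) ?_⟩; simp [h1, h2, h3, F.t1, F.t2, F.t3, F.u1, F.u2, F.u3]; done)

end Fr

end H89.Th
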